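import Groth.Agent.Etalg.H373.NagFin
import Groth.Agent.Etalg.ResTop
import Mathlib.Algebra.CharP.Frobenius

/-!
# Coefficients with respect to a basis of a purely inseparable extension are bounded

`B` is a Nagata discrete valuation ring with fraction field `L`, inside a big valued field `(Ω, O)` dominating `B`;
`F ⊆ M` are finite extensions of `L` in `Ω` with `M ^ q ⊆ F`.  Then the coefficients of `x ∈ M` with respect to an
`F`-basis of `M` are bounded by a constant times the value of `x`.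
-/

set_option autoImplicit false
universe u v

open IsLocalRing EtRam Groth.Agent.Etalg.RamBasic Groth.Agent.Etalg.ResInd Groth.Agent.Etalg.ResTop

namespace Groth.Agent.Etalg.H373.Bound

section

variable {B L Ω : Type u} [CommRing B] [IsDomain B] [IsDiscreteValuationRing B] [Field L] [Field Ω]
  [Algebra B L] [IsFractionRing B L] [Algebra L Ω]

/-- a finite extension of `L` has a uniformizer -/
theorem exists_unif (O : ValuationSubring Ω)
    (hO : Dominates B ((algebraMap L Ω).comp (algebraMap B L)) O)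
    (F : IntermediateField L Ω) [FiniteDimensional L F] :
    ∃ ϖ ∈ F, IsUnif O (F : Set Ω) ϖ := by
  have hV : Dominates B ((algebraMap L F).comp (algebraMap B L)) (O.comap (algebraMap F Ω)) := by
    rw [← dominates_comp_iff]
    exact hO
  have hdvr : IsDiscreteValuationRing (O.comap (algebraMap F Ω)) := RamDVR.isDVR_of_dominates hV
  obtain ⟨ϖ, hϖ⟩ := exists_isUnif (O := O) (algebraMap F Ω)
  have hr : Set.range (algebraMap F Ω) = (F : Set Ω) := by
    ext x
    exact ⟨fun ⟨y, hy⟩ => hy ▸ y.2, fun hx => ⟨⟨x, hx⟩, rfl⟩⟩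
  rw [hr] at hϖ
  exact ⟨_, ϖ.2, hϖ⟩

/-- values of `x` with `x ^ q ∈ F` are within one step of values of `F` -/
theorem exists_zpow_near {O : ValuationSubring Ω} {F : Set Ω} {ϖ : Ω} (h : IsUnif O F ϖ) {q : ℕ} (hq : 0 < q)
    {x : Ω} (hx0 : x ≠ 0) (hx : x ^ q ∈ F) :
    ∃ k : ℤ, O.valuation x ≤ O.valuation ϖ ^ k ∧ O.valuation ϖ ^ (k + 1) < O.valuation x := by
  obtain ⟨m, hm⟩ := h.2.2 (x ^ q) hx (pow_ne_zero q hx0)
  rw [map_pow] at hm
  have hanti : StrictAnti (fun n : ℤ => O.valuation ϖ ^ n) := zpow_right_strictAnti₀ h.pos h.2.1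
  have hq' : (0 : ℤ) < q := by exact_mod_cast hq
  have hvx : 0 < O.valuation x := zero_lt_iff.2 ((Valuation.ne_zero_iff _).2 hx0)
  refine ⟨m / q, ?_, ?_⟩
  · refine le_of_not_gt fun hlt => ?_
    have h1 : (O.valuation ϖ ^ (m / (q : ℤ))) ^ q < O.valuation x ^ q :=
      pow_lt_pow_left₀ hlt zero_le hq.ne'
    rw [hm, ← zpow_natCast, ← zpow_mul] at h1
    have h2 : m < m / (q : ℤ) * q := hanti.lt_iff_gt.1 h1
    exact absurd h2 (not_lt.2 (Int.ediv_mul_le m hq'.ne'))
  · refine lt_of_not_ge fun hle => ?_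
    have h1 : O.valuation x ^ q ≤ (O.valuation ϖ ^ (m / (q : ℤ) + 1)) ^ q :=
      pow_le_pow_left₀ zero_le hle q
    rw [hm, ← zpow_natCast, ← zpow_mul] at h1
    have h2 : (m / (q : ℤ) + 1) * q ≤ m := hanti.le_iff_ge.1 h1
    exact absurd h2 (not_le.2 (Int.lt_ediv_add_one_mul_self m hq'))

/-- Coefficients are bounded (version over `L`). -/
theorem bound_L (hB : CAlg.IsNagata B) (O : ValuationSubring Ω)
    (hO : Dominates B ((algebraMap L Ω).comp (algebraMap B L)) O)
    (F M : IntermediateField L Ω) [FiniteDimensional L M] (hFM : F ≤ M) {q : ℕ} (hq : 0 < q)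
    (hpow : ∀ x ∈ M, x ^ q ∈ F) {ι : Type v} [Fintype ι] (e : ι → Ω) (heM : ∀ j, e j ∈ M)
    (hind : ∀ c : ι → Ω, (∀ j, c j ∈ F) → ∑ j, c j * e j = 0 → ∀ j, c j = 0)
    (hspan : ∀ x ∈ M, ∃ c : ι → Ω, (∀ j, c j ∈ F) ∧ x = ∑ j, c j * e j)
    (t : Ω) (htF : t ∈ F) (ht0 : t ≠ 0) (ht1 : O.valuation t < 1) :
    ∃ N : ℕ, ∀ c : ι → Ω, (∀ j, c j ∈ F) → ∀ j,
      O.valuation t ^ N * O.valuation (c j) ≤ O.valuation (∑ i, c i * e i) := by
  classical
  have hF : FiniteDimensional L F :=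
    FiniteDimensional.of_injective (IntermediateField.inclusion hFM).toLinearMap
      (IntermediateField.inclusion_injective hFM)
  obtain ⟨n, w, hw, hgen⟩ := NagFin.exists_span hB O hO F M hFM hq hpow
  choose f hfF hf using fun i => hspan (w i) (hw i).1
  obtain ⟨ϖ, hϖF, hϖ⟩ := exists_unif O hO F
  have htϖ : O.valuation t ≤ O.valuation ϖ := hϖ.le_of_lt_one htF ht1
  choose m hm using fun (ij : Fin n × ι) => hϖ.exists_pow_mul_le_one (hfF ij.1 ij.2)
  let N₀ : ℕ := Finset.univ.sup m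
  have hN₀ : ∀ i j, O.valuation t ^ (N₀ + 1) * O.valuation (f i j) ≤ O.valuation ϖ := by
    intro i j
    have h1 : m (i, j) ≤ N₀ := Finset.le_sup (f := m) (Finset.mem_univ (i, j))
    have h2 := hm (i, j) N₀ h1
    rw [map_mul, map_pow] at h2
    calc O.valuation t ^ (N₀ + 1) * O.valuation (f i j)
        ≤ O.valuation ϖ ^ (N₀ + 1) * O.valuation (f i j) :=
          mul_le_mul' (pow_le_pow_left₀ zero_le htϖ _) le_rfl
      _ = O.valuation ϖ * (O.valuation ϖ ^ N₀ * O.valuation (f i j)) := by rw [pow_succ', mul_assoc]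
      _ ≤ O.valuation ϖ * 1 := mul_le_mul' le_rfl h2
      _ = O.valuation ϖ := mul_one _
  refine ⟨N₀ + 1, fun c hc j => ?_⟩
  set x : Ω := ∑ i, c i * e i with hx
  rcases eq_or_ne x 0 with hx0 | hx0
  · rw [hind c hc (hx ▸ hx0) j, map_zero, mul_zero]
    exact zero_le
  have hxM : x ∈ M := M.sum_mem fun i _ => M.mul_mem (hFM (hc i)) (heM i)
  obtain ⟨k, hk1, hk2⟩ := exists_zpow_near hϖ hq hx0 (hpow x hxM)
  have hϖk : ϖ ^ k ∈ F := zpow_mem hϖF k
  have hϖk0 : ϖ ^ k ≠ 0 := zpow_ne_zero k hϖ.1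
  obtain ⟨a, ha, hxa⟩ := hgen (x / ϖ ^ k) (M.div_mem hxM (hFM hϖk)) (by
    rw [map_div₀, map_zpow₀]
    exact (div_le_one₀ (zpow_pos hϖ.pos k)).2 hk1)
  have hxe : x = ∑ j, (∑ i, ϖ ^ k * a i * f i j) * e j := by
    have h1 : x = ϖ ^ k * (x / ϖ ^ k) := by rw [mul_div_cancel₀ _ hϖk0]
    rw [h1, hxa, Finset.mul_sum]
    simp_rw [Finset.sum_mul]
    rw [Finset.sum_comm]
    refine Finset.sum_congr rfl fun i _ => ?_
    conv_lhs => rw [hf i]
    rw [Finset.mul_sum, Finset.mul_sum]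
    exact Finset.sum_congr rfl fun j _ => by ring
  have hcj : c j = ∑ i, ϖ ^ k * a i * f i j := by
    have h1 := hind (fun j => c j - ∑ i, ϖ ^ k * a i * f i j)
      (fun j => F.sub_mem (hc j) (F.sum_mem fun i _ => F.mul_mem (F.mul_mem hϖk (ha i).1) (hfF i j)))
      (by
        simp_rw [sub_mul]
        rw [Finset.sum_sub_distrib, ← hx, ← hxe, sub_self]) j
    exact sub_eq_zero.1 h1
  have hfin : O.valuation t ^ (N₀ + 1) * O.valuation (c j) ≤ O.valuation ϖ ^ k * O.valuation ϖ := by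
    rw [hcj, ← map_pow, ← map_mul, Finset.mul_sum]
    refine sum_le fun i _ => ?_
    have : t ^ (N₀ + 1) * (ϖ ^ k * a i * f i j) = ϖ ^ k * (a i * (t ^ (N₀ + 1) * f i j)) := by ring
    rw [this, map_mul, map_mul, map_mul, map_pow, map_zpow₀]
    exact mul_le_mul' le_rfl ((mul_le_mul' (ha i).2 (hN₀ i j)).trans (one_mul _).le)
  refine hfin.trans ?_
  rw [← zpow_add_one₀ hϖ.pos.ne']
  exact hk2.le

end

section

variable {B K L Ω : Type u} [CommRing B] [IsDomain B] [IsDiscreteValuationRing B] [Field K] [Field L] [Field Ω]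
  [Algebra B L] [IsFractionRing B L] [Algebra K L] [Algebra L Ω] [Algebra K Ω] [IsScalarTower K L Ω]

/-- an intermediate field of `Ω / K` containing the image of `L`, as an intermediate field of `Ω / L` -/
def overL (G : IntermediateField K Ω) (hG : (IsScalarTower.toAlgHom K L Ω).fieldRange ≤ G) :
    IntermediateField L Ω where
  toSubalgebra :=
    { carrier := (G : Set Ω)
      mul_mem' := fun ha hb => G.mul_mem ha hb
      add_mem' := fun ha hb => G.add_mem ha hb
      algebraMap_mem' := fun r => hG ⟨r, rfl⟩ }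
  inv_mem' := fun _ hx => G.inv_mem hx

theorem mem_overL (G : IntermediateField K Ω) (hG : (IsScalarTower.toAlgHom K L Ω).fieldRange ≤ G) (x : Ω) :
    x ∈ overL G hG ↔ x ∈ G := Iff.rfl

theorem overL_sup (E : IntermediateField K Ω) :
    overL ((IsScalarTower.toAlgHom K L Ω).fieldRange ⊔ E) le_sup_left = IntermediateField.adjoin L (E : Set Ω) := by
  refine le_antisymm (fun x hx => ?_) (IntermediateField.adjoin_le_iff.2 fun x hx => ?_)
  · have h1 : (IsScalarTower.toAlgHom K L Ω).fieldRange ⊔ E ≤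
        (IntermediateField.adjoin L (E : Set Ω)).restrictScalars K := by
      refine sup_le ?_ fun y hy => IntermediateField.subset_adjoin L (E : Set Ω) hy
      rintro _ ⟨y, rfl⟩
      exact (IntermediateField.adjoin L (E : Set Ω)).algebraMap_mem y
    exact h1 hx
  · exact (le_sup_right : E ≤ (IsScalarTower.toAlgHom K L Ω).fieldRange ⊔ E) hx

theorem finiteDimensional_overL (E : IntermediateField K Ω) [FiniteDimensional K E] :
    FiniteDimensional L (overL ((IsScalarTower.toAlgHom K L Ω).fieldRange ⊔ E) le_sup_left) := by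
  rw [overL_sup]
  obtain ⟨S, hS⟩ := (IntermediateField.fg_def (S := E)).1 (IntermediateField.essFiniteType_iff.1
    (inferInstance : Algebra.EssFiniteType K E))
  have h1 : IntermediateField.adjoin L (E : Set Ω) = IntermediateField.adjoin L S := by
    refine le_antisymm (IntermediateField.adjoin_le_iff.2 fun x hx => ?_)
      (IntermediateField.adjoin.mono L _ _ fun x hx => ?_)
    · have h2 : E ≤ (IntermediateField.adjoin L S).restrictScalars K := by
        rw [← hS.2]
        exact IntermediateField.adjoin_le_iff.2 fun y hy => IntermediateField.subset_adjoin L S hy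
      exact h2 hx
    · rw [← hS.2]
      exact IntermediateField.subset_adjoin K S hx
  rw [h1]
  have : Finite S := hS.1
  refine IntermediateField.finiteDimensional_adjoin fun x hx => ?_
  have hxE : x ∈ E := by
    rw [← hS.2]
    exact IntermediateField.subset_adjoin K S hx
  have h3 : IsIntegral K (⟨x, hxE⟩ : E) := Algebra.IsIntegral.isIntegral _
  have h4 : IsIntegral K x := h3.map E.val
  exact h4.tower_top

/-- uniform exponent -/
theorem exists_exponent (Es E : IntermediateField K Ω) [FiniteDimensional K E]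
    (p : ℕ) [Fact p.Prime] [CharP Ω p] (hpi : ∀ x ∈ E, ∃ n, x ^ p ^ n ∈ Es) :
    ∃ n, ∀ x ∈ E, x ^ p ^ n ∈ Es := by
  classical
  obtain ⟨S, hS⟩ := (IntermediateField.fg_def (S := E)).1 (IntermediateField.essFiniteType_iff.1
    (inferInstance : Algebra.EssFiniteType K E))
  have hSE : ∀ x ∈ S, x ∈ E := fun x hx => by
    rw [← hS.2]
    exact IntermediateField.subset_adjoin K S hx
  choose! n hn using hpi
  let T : Finset Ω := hS.1.toFinset
  let N := T.sup n
  have hmono : ∀ (x : Ω) (a b : ℕ), a ≤ b → x ^ p ^ a ∈ Es → x ^ p ^ b ∈ Es := by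
    intro x a b hab h
    obtain ⟨d, rfl⟩ := Nat.exists_eq_add_of_le hab
    rw [pow_add, pow_mul]
    exact pow_mem h _
  refine ⟨N, fun x hx => ?_⟩
  let G : IntermediateField K Ω :=
    { carrier := {y | y ^ p ^ N ∈ Es}
      mul_mem' := fun {a b} ha hb => by
        show (a * b) ^ p ^ N ∈ Es
        rw [mul_pow]; exact Es.mul_mem ha hb
      add_mem' := fun {a b} ha hb => by
        show (a + b) ^ p ^ N ∈ Es
        rw [add_pow_char_pow]; exact Es.add_mem ha hb
      algebraMap_mem' := fun r => by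
        show (algebraMap K Ω r) ^ p ^ N ∈ Es
        exact pow_mem (Es.algebraMap_mem r) _
      inv_mem' := fun a ha => by
        show (a⁻¹) ^ p ^ N ∈ Es
        rw [inv_pow]; exact Es.inv_mem ha }
  have hEG : E ≤ G := by
    rw [← hS.2]
    refine IntermediateField.adjoin_le_iff.2 fun y hy => ?_
    exact hmono y _ _ (Finset.le_sup (f := n) (hS.1.mem_toFinset.2 hy)) (hn y (hSE y hy))
  exact hEG hx

/-- the exponent persists in composita -/
theorem pow_mem_sup (Es E X : IntermediateField K Ω) (p : ℕ) [Fact p.Prime] [CharP Ω p] {n : ℕ}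
    (hpi : ∀ x ∈ E, x ^ p ^ n ∈ Es) : ∀ x ∈ X ⊔ E, x ^ p ^ n ∈ X ⊔ Es := by
  let G : IntermediateField K Ω :=
    { carrier := {y | y ^ p ^ n ∈ X ⊔ Es}
      mul_mem' := fun {a b} ha hb => by
        show (a * b) ^ p ^ n ∈ X ⊔ Es
        rw [mul_pow]; exact (X ⊔ Es).mul_mem ha hb
      add_mem' := fun {a b} ha hb => by
        show (a + b) ^ p ^ n ∈ X ⊔ Es
        rw [add_pow_char_pow]; exact (X ⊔ Es).add_mem ha hb
      algebraMap_mem' := fun r => by
        show (algebraMap K Ω r) ^ p ^ n ∈ X ⊔ Es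
        exact pow_mem ((X ⊔ Es).algebraMap_mem r) _
      inv_mem' := fun a ha => by
        show (a⁻¹) ^ p ^ n ∈ X ⊔ Es
        rw [inv_pow]; exact (X ⊔ Es).inv_mem ha }
  have h1 : X ⊔ E ≤ G := sup_le
    (fun y hy => pow_mem ((le_sup_left : X ≤ X ⊔ Es) hy) _)
    (fun y hy => (le_sup_right : Es ≤ X ⊔ Es) (hpi y hy))
  exact fun x hx => h1 hx

/-- Coefficients are bounded. -/
theorem bound (hB : CAlg.IsNagata B) (O : ValuationSubring Ω)
    (hO : Dominates B ((algebraMap L Ω).comp (algebraMap B L)) O)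
    (Es E : IntermediateField K Ω) (hle : Es ≤ E) [FiniteDimensional K E]
    (p : ℕ) [Fact p.Prime] [CharP Ω p] (hpi : ∀ x ∈ E, ∃ n, x ^ p ^ n ∈ Es)
    {ι : Type v} [Fintype ι] (e : ι → Ω) (heE : ∀ j, e j ∈ E)
    (hind : ∀ c : ι → Ω, (∀ j, c j ∈ (IsScalarTower.toAlgHom K L Ω).fieldRange ⊔ Es) →
      ∑ j, c j * e j = 0 → ∀ j, c j = 0)
    (hspan : ∀ x ∈ (IsScalarTower.toAlgHom K L Ω).fieldRange ⊔ E, ∃ c : ι → Ω,
      (∀ j, c j ∈ (IsScalarTower.toAlgHom K L Ω).fieldRange ⊔ Es) ∧ x = ∑ j, c j * e j)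
    (t : Ω) (htF : t ∈ (IsScalarTower.toAlgHom K L Ω).fieldRange ⊔ Es) (ht0 : t ≠ 0)
    (ht1 : O.valuation t < 1) :
    ∃ N : ℕ, ∀ c : ι → Ω, (∀ j, c j ∈ (IsScalarTower.toAlgHom K L Ω).fieldRange ⊔ Es) → ∀ j,
      O.valuation t ^ N * O.valuation (c j) ≤ O.valuation (∑ i, c i * e i) := by
  obtain ⟨n, hn⟩ := exists_exponent Es E p hpi
  have hn' := pow_mem_sup Es E (IsScalarTower.toAlgHom K L Ω).fieldRange p hn
  have := finiteDimensional_overL (L := L) E
  exact bound_L hB O hO (overL ((IsScalarTower.toAlgHom K L Ω).fieldRange ⊔ Es) le_sup_left)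
    (overL ((IsScalarTower.toAlgHom K L Ω).fieldRange ⊔ E) le_sup_left)
    (fun x hx => (sup_le_sup le_rfl hle :
      (IsScalarTower.toAlgHom K L Ω).fieldRange ⊔ Es ≤ (IsScalarTower.toAlgHom K L Ω).fieldRange ⊔ E) hx)
    (q := p ^ n) (pow_pos (Fact.out : p.Prime).pos n) hn' e
    (fun j => (le_sup_right : E ≤ (IsScalarTower.toAlgHom K L Ω).fieldRange ⊔ E) (heE j))
    hind hspan t htF ht0 ht1

end

end Groth.Agent.Etalg.H373.Bound
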