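import Groth.Agent.Etalg.RamDict
import Groth.Agent.Etalg.N2Descent
import Groth.Agent.Etalg.ResInd
import Groth.Agent.Ega4B.NagBasic
import Groth.Agent.S0566

/-!
# Finiteness of valuation rings in purely inseparable extensions, from the Nagata property

`B` is a Nagata discrete valuation ring with fraction field `L`, inside a big valued field `(Ω, O)` dominating `B`.
-/

set_option autoImplicit false
universe u

open IsLocalRing EtRam Groth.Agent.Etalg.RamBasic

namespace Groth.Agent.Etalg.H373.NagFin

/-- Algebras essentially of finite type over a Nagata ring are Nagata. -/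
theorem isNagata_of_essFiniteType {A B : Type u} [CommRing A] [CommRing B] [Algebra A B]
    [Algebra.EssFiniteType A B] (hA : CAlg.IsNagata A) : CAlg.IsNagata B :=
  Groth.Agent.Ega4B.NagBasic.isNagata_localization
    (Groth.Agent.S0566.result A hA (Algebra.EssFiniteType.subalgebra A B))
    (Algebra.EssFiniteType.submonoid A B) B

section

variable {B L Ω : Type u} [CommRing B] [IsDomain B] [IsDiscreteValuationRing B] [Field L] [Field Ω]
  [Algebra B L] [IsFractionRing B L] [Algebra L Ω]

/-- Elements of value `≤ 1` of a finite extension are fractions of integral elements, with denominator a unit of `O`. -/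
theorem exists_denom (hB : CAlg.IsNagata B) (O : ValuationSubring Ω)
    [Algebra B Ω] [IsScalarTower B L Ω] (hO : Dominates B (algebraMap B Ω) O)
    (F : IntermediateField L Ω) [FiniteDimensional L F] {y : Ω} (hy : y ∈ F) (hy1 : O.valuation y ≤ 1) :
    ∃ s : Ω, s ∈ F ∧ IsIntegral B s ∧ O.valuation s = 1 ∧ IsIntegral B (s * y) := by
  have tF : IsScalarTower B F Ω := IsScalarTower.of_algebraMap_eq fun b => by
    rw [IsScalarTower.algebraMap_apply B L Ω, IsScalarTower.algebraMap_apply B L F,
      ← IsScalarTower.algebraMap_apply L F Ω]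
  have hN : Module.Finite B (integralClosure B F) := N2Descent.n2For_of_isNagata B L hB F
  have hBn : IsNoetherianRing B := inferInstance
  have hDn : IsNoetherianRing (integralClosure B F) := IsNoetherianRing.of_finite B _
  have hint : Algebra.IsIntegral B (integralClosure B F) := inferInstance
  have hfr : IsFractionRing (integralClosure B F) F :=
    IsIntegralClosure.isFractionRing_of_finite_extension B L F (integralClosure B F)
  have hic : IsIntegrallyClosed (integralClosure B F) :=
    integralClosure.isIntegrallyClosedOfFiniteExtension L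
  have hdim : Ring.DimensionLEOne (integralClosure B F) := inferInstance
  have hded : IsDedekindDomain (integralClosure B F) := { }
  have hV : Dominates B (algebraMap B F) (O.comap (algebraMap F Ω)) := by
    rw [← dominates_comp_iff]
    exact hO
  have hinj : Function.Injective (algebraMap B F) := by
    rw [IsScalarTower.algebraMap_eq B L F]
    exact (algebraMap L F).injective.comp (IsFractionRing.injective B L)
  let iA : Algebra (integralClosure B F) (O.comap (algebraMap F Ω)) :=
    (RamDict.toV (integralClosure B F) hV.1).toAlgebra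
  have hloc : IsLocalization.AtPrime (O.comap (algebraMap F Ω)) (RamDict.center (integralClosure B F) hV.1) :=
    RamDict.isLocalization_atPrime (integralClosure B F) hinj hV
  have hyV : (⟨y, hy⟩ : F) ∈ O.comap (algebraMap F Ω) := by
    show y ∈ O
    exact (O.valuation_le_one_iff y).1 hy1
  obtain ⟨⟨c, s⟩, hcs⟩ := IsLocalization.surj (RamDict.center (integralClosure B F) hV.1).primeCompl
    (⟨⟨y, hy⟩, hyV⟩ : O.comap (algebraMap F Ω))
  have hcs' : (⟨y, hy⟩ : F) * ((s : integralClosure B F) : F) = ((c : integralClosure B F) : F) :=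
    congrArg Subtype.val hcs
  have hcs2 : y * (((s : integralClosure B F) : F) : Ω) = (((c : integralClosure B F) : F) : Ω) :=
    congrArg Subtype.val hcs'
  have toΩ : ∀ d : integralClosure B F, IsIntegral B ((d : F) : Ω) := fun d =>
    (show IsIntegral B (d : F) from d.2).map (IsScalarTower.toAlgHom B F Ω)
  refine ⟨(((s : integralClosure B F) : F) : Ω), ((s : integralClosure B F) : F).2, toΩ _, ?_, ?_⟩
  · have hs : (s : integralClosure B F) ∉ RamDict.center (integralClosure B F) hV.1 := s.2
    rw [RamDict.mem_center_iff] at hs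
    have h1 : ¬ O.valuation (((s : integralClosure B F) : F) : Ω) < 1 := by
      intro h
      exact hs ((valuation_comap_lt_one_iff O (algebraMap F Ω) _).2 h)
    have h2 : O.valuation (((s : integralClosure B F) : F) : Ω) ≤ 1 := by
      rw [ValuationSubring.valuation_le_one_iff]
      exact RamDict.algebraMap_mem (integralClosure B F) hV.1 (s : integralClosure B F)
    exact le_antisymm h2 (not_lt.1 h1)
  · rw [mul_comm, hcs2]
    exact toΩ _

/-- The ring of integers of `M` is generated by finitely many elements over that of `F`, if `M/F` has exponent `q`. -/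
theorem exists_span (hB : CAlg.IsNagata B) (O : ValuationSubring Ω)
    (hO : Dominates B ((algebraMap L Ω).comp (algebraMap B L)) O)
    (F M : IntermediateField L Ω) [FiniteDimensional L M] (hFM : F ≤ M) {q : ℕ} (hq : 0 < q)
    (hpow : ∀ x ∈ M, x ^ q ∈ F) :
    ∃ (n : ℕ) (w : Fin n → Ω), (∀ i, w i ∈ M ∧ O.valuation (w i) ≤ 1) ∧
      ∀ x ∈ M, O.valuation x ≤ 1 →
        ∃ c : Fin n → Ω, (∀ i, c i ∈ F ∧ O.valuation (c i) ≤ 1) ∧ x = ∑ i, c i * w i := by
  classical
  let iB : Algebra B Ω := ((algebraMap L Ω).comp (algebraMap B L)).toAlgebra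
  have t : IsScalarTower B L Ω := IsScalarTower.of_algebraMap_eq' rfl
  have hO' : Dominates B (algebraMap B Ω) O := hO
  have hF : FiniteDimensional L F :=
    FiniteDimensional.of_injective (IntermediateField.inclusion hFM).toLinearMap
      (IntermediateField.inclusion_injective hFM)
  have tM : IsScalarTower B M Ω := IsScalarTower.of_algebraMap_eq fun b => by
    rw [IsScalarTower.algebraMap_apply B L Ω, IsScalarTower.algebraMap_apply B L M,
      ← IsScalarTower.algebraMap_apply L M Ω]
  have hN : Module.Finite B (integralClosure B M) := N2Descent.n2For_of_isNagata B L hB M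
  obtain ⟨n, g, hg⟩ := Module.Finite.exists_fin (R := B) (M := integralClosure B M)
  have hleO : ∀ z : Ω, IsIntegral B z → O.valuation z ≤ 1 := by
    intro z hz
    rw [ValuationSubring.valuation_le_one_iff]
    let _ : Algebra B O := ((algebraMap B Ω).codRestrict O hO'.1).toAlgebra
    have : IsScalarTower B O Ω := IsScalarTower.of_algebraMap_eq' rfl
    have h2 : IsIntegral O z := hz.tower_top
    obtain ⟨v, hv⟩ := IsIntegrallyClosed.algebraMap_eq_of_integral h2
    rw [← hv]
    exact v.2
  have toΩ : ∀ d : integralClosure B M, IsIntegral B ((d : M) : Ω) := fun d =>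
    (show IsIntegral B (d : M) from d.2).map (IsScalarTower.toAlgHom B M Ω)
  refine ⟨n, fun i => ((g i : M) : Ω), fun i => ⟨(g i : M).2, hleO _ (toΩ _)⟩, fun x hx hx1 => ?_⟩
  obtain ⟨s, hsF, hsint, hs1, hsx⟩ := exists_denom hB O hO' F (hpow x hx)
    (by rw [map_pow]; exact pow_le_one' hx1 q)
  have hsxq : IsIntegral B ((s * x) ^ q) := by
    obtain ⟨q', rfl⟩ : ∃ q', q = q' + 1 := ⟨q - 1, by omega⟩
    have : (s * x) ^ (q' + 1) = s ^ q' * (s * x ^ (q' + 1)) := by ring
    rw [this]
    exact (hsint.pow q').mul hsx
  have hsx' : IsIntegral B (s * x) := IsIntegral.of_pow hq hsxq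
  have hsxM : s * x ∈ M := M.mul_mem (hFM hsF) hx
  have hsxM' : IsIntegral B (⟨s * x, hsxM⟩ : M) := by
    rw [← isIntegral_algebraMap_iff (algebraMap M Ω).injective]
    exact hsx'
  have hmem : (⟨⟨s * x, hsxM⟩, hsxM'⟩ : integralClosure B M) ∈ Submodule.span B (Set.range g) := by
    rw [hg]; trivial
  obtain ⟨b, hb⟩ := (Submodule.mem_span_range_iff_exists_fun B).1 hmem
  have hb' : ∑ i, algebraMap B Ω (b i) * ((g i : M) : Ω) = s * x := by
    have h1 := congrArg (fun d : integralClosure B M => ((d : M) : Ω)) hb
    simp only at h1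
    rw [← h1]
    have h2 : ∀ d : integralClosure B M, ((d : M) : Ω) =
        ((IsScalarTower.toAlgHom B M Ω).comp (integralClosure B M).val) d := fun _ => rfl
    rw [h2, map_sum]
    refine Finset.sum_congr rfl fun i _ => ?_
    rw [map_smul, Algebra.smul_def]
    rfl
  have hs0 : s ≠ 0 := by
    rintro rfl
    rw [map_zero] at hs1
    exact zero_ne_one hs1
  refine ⟨fun i => algebraMap B Ω (b i) / s, fun i => ⟨?_, ?_⟩, ?_⟩
  · exact F.div_mem (by
      rw [IsScalarTower.algebraMap_apply B L Ω]
      exact F.algebraMap_mem _) hsF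
  · rw [map_div₀, hs1, div_one]
    rw [ValuationSubring.valuation_le_one_iff]
    exact hO'.1 (b i)
  · have h3 : ∑ i, algebraMap B Ω (b i) / s * ((g i : M) : Ω) =
        (∑ i, algebraMap B Ω (b i) * ((g i : M) : Ω)) / s := by
      rw [Finset.sum_div]
      exact Finset.sum_congr rfl fun i _ => by ring
    rw [h3, hb', mul_div_cancel_left₀ _ hs0]

end

end Groth.Agent.Etalg.H373.NagFin
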